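import Mathlib
import Cfsg.Agent.Lib.LyDce.VImg
import Cfsg.Agent.TcData.Ly.Syl.FuN4

set_option autoImplicit false
set_option Elab.async false
set_option maxRecDepth 100000
set_option linter.all false
set_option maxHeartbeats 0

namespace Cfsg.Agent.TcData.Ly.Syl.FuN

open Cfsg.Agent.Lib.LyDce Cfsg.Agent.Lib.FpVec Cfsg.Agent.Lib.LyV111 Cfsg.Agent.TcData.Ly.Syl.CarP

theorem Z_0 : ∀ i, i < 16 → Px X10 F41 F40 (i + 0) := by decide +kernel

theorem Z_16 : ∀ i, i < 16 → Px X10 F41 F40 (i + 16) := by decide +kernel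

theorem Z_32 : ∀ i, i < 16 → Px X10 F41 F40 (i + 32) := by decide +kernel

theorem Z_48 : ∀ i, i < 16 → Px X10 F41 F40 (i + 48) := by decide +kernel

theorem Z_64 : ∀ i, i < 16 → Px X10 F41 F40 (i + 64) := by decide +kernel

theorem Z_80 : ∀ i, i < 16 → Px X10 F41 F40 (i + 80) := by decide +kernel

theorem Z_96 : ∀ i, i < 15 → Px X10 F41 F40 (i + 96) := by decide +kernel

theorem K0_0 : ∀ i, i < 16 → Px F17 F54 F55 (i + 0) := by decide +kernel

theorem K0_16 : ∀ i, i < 16 → Px F17 F54 F55 (i + 16) := by decide +kernel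

theorem K0_32 : ∀ i, i < 16 → Px F17 F54 F55 (i + 32) := by decide +kernel

theorem K0_48 : ∀ i, i < 16 → Px F17 F54 F55 (i + 48) := by decide +kernel

theorem K0_64 : ∀ i, i < 16 → Px F17 F54 F55 (i + 64) := by decide +kernel

theorem K0_80 : ∀ i, i < 16 → Px F17 F54 F55 (i + 80) := by decide +kernel

theorem K0_96 : ∀ i, i < 15 → Px F17 F54 F55 (i + 96) := by decide +kernel

theorem K1_0 : ∀ i, i < 16 → Px F26 F60 F61 (i + 0) := by decide +kernel

theorem K1_16 : ∀ i, i < 16 → Px F26 F60 F61 (i + 16) := by decide +kernel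

theorem K1_32 : ∀ i, i < 16 → Px F26 F60 F61 (i + 32) := by decide +kernel

theorem K1_48 : ∀ i, i < 16 → Px F26 F60 F61 (i + 48) := by decide +kernel

theorem K1_64 : ∀ i, i < 16 → Px F26 F60 F61 (i + 64) := by decide +kernel

theorem K1_80 : ∀ i, i < 16 → Px F26 F60 F61 (i + 80) := by decide +kernel

theorem K1_96 : ∀ i, i < 15 → Px F26 F60 F61 (i + 96) := by decide +kernel

theorem K2_0 : ∀ i, i < 16 → Px F36 F67 F68 (i + 0) := by decide +kernel

theorem K2_16 : ∀ i, i < 16 → Px F36 F67 F68 (i + 16) := by decide +kernel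

theorem K2_32 : ∀ i, i < 16 → Px F36 F67 F68 (i + 32) := by decide +kernel

theorem K2_48 : ∀ i, i < 16 → Px F36 F67 F68 (i + 48) := by decide +kernel

theorem K2_64 : ∀ i, i < 16 → Px F36 F67 F68 (i + 64) := by decide +kernel

theorem K2_80 : ∀ i, i < 16 → Px F36 F67 F68 (i + 80) := by decide +kernel

theorem K2_96 : ∀ i, i < 15 → Px F36 F67 F68 (i + 96) := by decide +kernel

end Cfsg.Agent.TcData.Ly.Syl.FuN
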